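import Mathlib
import Cfsg.Prelude.Def_Perm

/-!
# S3691 (regular subgroups of almost simple primitive groups of large degree): interface and first reduction

* `Concl B` : the conclusion of S3691 for the group `B`;
* `Ex G T H B` : `T` a nonabelian simple normal subgroup of `G` with trivial centralizer, `H` a maximal subgroup of `G` not
  containing `T`, `B` a complement: `H ⊓ B = 1`, `|H| |B| = |G|`, `|B| > 3 · 29!`, and `2 |T| ≠ |B|!` (the action on the cosets
  of `H` is not the natural action of an alternating group);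
* `Row S` : for all `Ex G T H B` with `T ≃* S`: `Concl B`;
* `main_of_rows` : the statement follows from the rows.
-/

set_option autoImplicit false

namespace Cfsg.Agent.H454.Reg

open Cfsg Subgroup

/-- the conclusion of S3691 -/
def Concl (B : Type*) [Group B] : Prop :=
  (∃ q m : ℕ, IsPrimePow q ∧ Nat.card B * (q - 1) = q ^ m - 1 ∧
      ∃ C : Subgroup B, C.Normal ∧ IsCyclic C ∧ ∀ h : C.Normal, IsCyclic (B ⧸ C)) ∨
  (∃ (F : Type) (_ : Field F) (_ : Fintype F), Fintype.card F % 4 = 3 ∧ 2 * Nat.card B = Fintype.card F * (Fintype.card F - 1) ∧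
      ∃ f : B →* Equiv.Perm F, Function.Injective f ∧ f.range ≤ Cfsg.semiaffineGroup F) ∨
  (∃ p : ℕ, p.Prime ∧ (Nonempty (B ≃* alternatingGroup (Fin (p - 2))) ∨ Nonempty (B ≃* Equiv.Perm (Fin (p - 2))) ∨
      (p % 4 = 1 ∧ Nonempty (B ≃* alternatingGroup (Fin (p - 2)) × Multiplicative (ZMod 2))))) ∨
  (∃ p : ℕ, p.Prime ∧ p % 4 = 3 ∧ Nonempty (B ≃* alternatingGroup (Fin (p ^ 2 - 2))))

/-- an exact factorization of an almost simple group with a maximal factor `H` -/
structure Ex {G : Type*} [Group G] (T H B : Subgroup G) : Prop where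
  normal : T.Normal
  simple : IsSimpleGroup T
  nonab : ¬ IsMulCommutative T
  cent : centralizer (T : Set G) = ⊥
  max : IsCoatom H
  not_le : ¬ T ≤ H
  inf : H ⊓ B = ⊥
  card : Nat.card H * Nat.card B = Nat.card G
  large : 3 * Nat.factorial 29 < Nat.card B
  nat : 2 * Nat.card T ≠ Nat.factorial (Nat.card B)

/-- the row of a simple group `S` -/
def Row (S : Type*) [Group S] : Prop :=
  ∀ {G : Type*} [Group G] [Finite G] (T H B : Subgroup G), Ex T H B → Nonempty (T ≃* S) → Concl B

theorem exists_ex {G Ω : Type*} [Group G] [Finite G] [MulAction G Ω] [FaithfulSMul G Ω] [Fintype Ω] [DecidableEq Ω]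
    (N : Subgroup G) (hNn : N.Normal) (hNs : IsSimpleGroup N) (hNa : ¬ IsMulCommutative N)
    (hNc : Subgroup.centralizer (N : Set G) = ⊥)
    (hprim : MulAction.IsPreprimitive G Ω) (hA : ¬ alternatingGroup Ω ≤ (MulAction.toPermHom G Ω).range)
    (hn : 3 * Nat.factorial 29 < Fintype.card Ω)
    (B : Subgroup G) (hBt : MulAction.IsPretransitive B Ω) (hBr : ∀ ω : Ω, MulAction.stabilizer B ω = ⊥) :
    ∃ H : Subgroup G, Ex N H B := by
  classical
  have hpos : 0 < 3 * Nat.factorial 29 := Nat.mul_pos (by norm_num) (Nat.factorial_pos _)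
  have hcard1 : 1 < Fintype.card Ω := lt_of_le_of_lt hpos hn
  have hnt : Nontrivial Ω := Fintype.one_lt_card_iff_nontrivial.1 hcard1
  obtain ⟨ω, -, -⟩ := exists_pair_ne Ω
  have hcB : Nat.card B = Fintype.card Ω := by
    have h1 := MulAction.index_stabilizer_of_transitive B ω
    rw [hBr ω, Subgroup.index_bot, Nat.card_eq_fintype_card (α := Ω)] at h1
    exact h1
  have hNΩ : ∀ g : G, (∀ x : Ω, g • x = x) → g = 1 := fun g hg =>
    FaithfulSMul.eq_of_smul_eq_smul (M := G) (α := Ω) fun x => by rw [hg x, one_smul]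
  have hNne : N ≠ ⊥ := by
    intro h
    subst h
    exact not_nontrivial _ hNs.toNontrivial
  refine ⟨MulAction.stabilizer G ω, hNn, hNs, hNa, hNc, ?_, ?_, ?_, ?_, ?_, ?_⟩
  · exact (MulAction.isCoatom_stabilizer_iff_preprimitive G ω).2 hprim
  · intro hle
    apply hNne
    rw [Subgroup.eq_bot_iff_forall]
    intro g hg
    refine hNΩ g fun x => ?_
    obtain ⟨k, rfl⟩ := MulAction.exists_smul_eq G ω x
    have h1 : k⁻¹ * g * k ∈ N := by
      have := hNn.conj_mem g hg k⁻¹
      rwa [inv_inv] at this
    have h2 : (k⁻¹ * g * k) • ω = ω := hle h1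
    rw [mul_smul, mul_smul] at h2
    exact (inv_smul_eq_iff.1 h2)
  · rw [Subgroup.eq_bot_iff_forall]
    rintro g ⟨hg1, hg2⟩
    have h1 : (⟨g, hg2⟩ : B) ∈ MulAction.stabilizer B ω := hg1
    rw [hBr ω, Subgroup.mem_bot] at h1
    exact congrArg Subtype.val h1
  · have h1 := MulAction.index_stabilizer_of_transitive G ω
    rw [hcB, ← Nat.card_eq_fintype_card (α := Ω), ← h1]
    exact Subgroup.card_mul_index _
  · rw [hcB]; exact hn
  · intro hfac
    apply hA
    rw [hcB] at hfac
    -- the image of `N` has index two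
    set f := MulAction.toPermHom G Ω with hf
    have hinj : Function.Injective f := MulAction.toPerm_injective
    have hc : Nat.card (N.map f) = Nat.card N := Subgroup.card_map_of_injective hinj
    have hidx : (N.map f).index = 2 := by
      have h1 := (N.map f).card_mul_index
      rw [hc, Nat.card_eq_fintype_card (α := Equiv.Perm Ω), Fintype.card_perm, ← hfac, mul_comm 2] at h1
      exact Nat.eq_of_mul_eq_mul_left Nat.card_pos h1
    have h2 : N.map f = alternatingGroup Ω := by
      have := Equiv.Perm.eq_alternatingGroup_of_index_eq_two hidx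
      exact this
    rw [← h2]
    exact Subgroup.map_le_range f N

end Cfsg.Agent.H454.Reg
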